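import Cfsg.Agent.Lib.Rec.M11Mod
import Cfsg.Agent.Lib.Id.M11
import Cfsg.Agent.Lib.TCX.Ext
import Cfsg.Agent.Lib.TCX.RM11a.Main
import Cfsg.Agent.Lib.TCX.RM11b.Main
import Cfsg.Agent.Lib.TCX.RM11c.Main
import Cfsg.Agent.Lib.TCX.RM11d.Main
import Cfsg.Agent.Lib.TCX.RM11e.Main
import Cfsg.Agent.Lib.TCX.RM11f.Main
import Cfsg.Agent.Lib.TCX.RM11g.Main

/-! Consequences of relations used in the recognition of `M₁₁`. -/

set_option autoImplicit false
set_option maxRecDepth 100000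

namespace Cfsg.Agent.Rec.M11

open Cfsg.Agent.CG Cfsg.Agent.TCX
open scoped commutatorElement

theorem imp_univ {R W : List (List ℕ)} (h : Imp R W) {Γ : Type*} [Group Γ] (y : ℕ → Γ)
    (hR : ∀ r ∈ R, ev y r = 1) : ∀ w ∈ W, ev y w = 1 := by
  let f : FreeGroup ℕ →* Γ := FreeGroup.lift y
  let y' : ℕ → FreeGroup ℕ ⧸ f.ker := fun a => QuotientGroup.mk (FreeGroup.of a)
  let g : FreeGroup ℕ ⧸ f.ker →* Γ := QuotientGroup.kerLift f
  have hg : Function.Injective g := QuotientGroup.kerLift_injective f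
  have hy : (fun a => g (y' a)) = y := by
    funext a; simp [g, y', f]
  intro w hw
  rw [← hy, ← map_ev, h _ y' (fun r hr => hg (by rw [map_ev, hy, hR r hr, map_one])) w hw, map_one]

/-- The common relators. -/
def Rb : List (List ℕ) := RN ++ [[4,4], [3,4,3,4,3,4], [4,2,4,2,4,2], [4,0,0,0,0,4,0,0,0,0]]

theorem impc : Imp (Rb ++ [[4,0,0,4,1,1,1,2]]) [[0,0,0,0]] :=
  (imp_of_ders (n := 5) (inv := invOf RM11c.invL) (hs := RM11c.hints) (by decide +kernel) (invOf_ge' rfl)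
    (by decide +kernel) (by decide +kernel) (by decide +kernel)).trans RM11c.l0_ok.imp

theorem impd : Imp (Rb ++ [[4,0,0,4,0,0,0,2]]) [[0,0,0,0]] :=
  (imp_of_ders (n := 5) (inv := invOf RM11d.invL) (hs := RM11d.hints) (by decide +kernel) (invOf_ge' rfl)
    (by decide +kernel) (by decide +kernel) (by decide +kernel)).trans RM11d.l0_ok.imp

/-- Coxeter relators. -/
def Rc : List (List ℕ) := [[0,0], [1,1], [2,2], [3,3], [1,2,1,2,1,2], [2,3,2,3,2,3], [1,3,1,3], [0,2,0,2], [0,3,0,3]]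

theorem impe : Imp (Rc ++ [[0,1,0,1,3]]) [[1,3]] :=
  (imp_of_ders (n := 4) (inv := invOf RM11e.invL) (hs := RM11e.hints) (by decide +kernel) (invOf_ge' rfl)
    (by decide +kernel) (by decide +kernel) (by decide +kernel)).trans RM11e.l0_ok.imp

theorem impf : Imp (Rc ++ [[0,1,0,1,0,1,3]]) [[1,3]] :=
  (imp_of_ders (n := 4) (inv := invOf RM11f.invL) (hs := RM11f.hints) (by decide +kernel) (invOf_ge' rfl)
    (by decide +kernel) (by decide +kernel) (by decide +kernel)).trans RM11f.l0_ok.imp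

theorem impg : Imp [[0,0], [1,1], [2,2], [0,1,0,1,0,1], [0,2,0,2,0,2], [1,2,1,2,1,2], [0,1,0,2,0,1,0,2,0,1,0,2]]
    RM11g.l0W :=
  (imp_of_ders (n := 3) (inv := invOf RM11g.invL) (hs := RM11g.hints) (by decide +kernel) (invOf_ge' rfl)
    (by decide +kernel) (by decide +kernel) (by decide +kernel)).trans RM11g.l0_ok.imp

section
variable {Γ : Type*} [Group Γ]

/-- Three involutions satisfying the Coxeter relations of `S₄`, nondegenerately. -/
structure Cox (a b c : Γ) : Prop where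
  aa : a * a = 1
  bb : b * b = 1
  cc : c * c = 1
  ab : (a * b) ^ 3 = 1
  bc : (b * c) ^ 3 = 1
  ac : a * c = c * a
  ne : a ≠ c

theorem sq_comm {a c : Γ} (ha : a * a = 1) (hc : c * c = 1) (h : a * c = c * a) : a * (c * (a * c)) = 1 := by
  rw [← mul_assoc c, ← h, mul_assoc, hc, mul_one, ha]

theorem Cox.rc {a b c y : Γ} (h : Cox a b c) (hy : y * y = 1) (hb : y * b = b * y) (hc : y * c = c * y) :
    ∀ r ∈ Rc, ev (fun i => [y, a, b, c].getD i 1) r = 1 := by
  have h1 := h.ab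
  have h2 := h.bc
  simp only [pow_succ, pow_zero, one_mul, mul_assoc] at h1 h2
  simp only [Rc, List.forall_mem_cons, ev_cons, ev_nil, List.getD_cons_zero, List.getD_cons_succ, mul_one]
  exact ⟨hy, h.aa, h.bb, h.cc, h1, h2, sq_comm h.aa h.cc h.ac, sq_comm hy h.bb hb, sq_comm hy h.cc hc, by simp⟩

theorem Cox.not_four {a b c y : Γ} (h : Cox a b c) (hy : y * y = 1) (hb : y * b = b * y) (hc : y * c = c * y) :
    y * a * (y * a) ≠ c := fun e => by
  have := imp_univ impe (fun i => [y, a, b, c].getD i 1) (List.forall_mem_append.2 ⟨h.rc hy hb hc, by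
    simp only [List.forall_mem_cons, ev_cons, ev_nil, List.getD_cons_zero, List.getD_cons_succ, mul_one]
    refine ⟨?_, by simp⟩
    rw [← h.cc]
    nth_rewrite 2 [← e]
    simp only [mul_assoc]⟩) [1, 3] (by simp)
  simp only [ev_cons, ev_nil, List.getD_cons_zero, List.getD_cons_succ, mul_one] at this
  exact h.ne (mul_right_cancel (this.trans h.cc.symm))

theorem Cox.not_six {a b c y : Γ} (h : Cox a b c) (hy : y * y = 1) (hb : y * b = b * y) (hc : y * c = c * y) :
    c ≠ (y * a) ^ 3 := fun e => by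
  have := imp_univ impf (fun i => [y, a, b, c].getD i 1) (List.forall_mem_append.2 ⟨h.rc hy hb hc, by
    simp only [List.forall_mem_cons, ev_cons, ev_nil, List.getD_cons_zero, List.getD_cons_succ, mul_one]
    refine ⟨?_, by simp⟩
    rw [← h.cc]
    nth_rewrite 2 [e]
    simp only [pow_succ, pow_zero, one_mul, mul_assoc]⟩) [1, 3] (by simp)
  simp only [ev_cons, ev_nil, List.getD_cons_zero, List.getD_cons_succ, mul_one] at this
  exact h.ne (mul_right_cancel (this.trans h.cc.symm))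

theorem triangle {x y s : Γ} (hx : x * x = 1) (hy : y * y = 1) (hs : s * s = 1) (h1 : (x * y) ^ 3 = 1)
    (h2 : (x * s) ^ 3 = 1) (h3 : (y * s) ^ 3 = 1) (h4 : (x * y * x * s) ^ 3 = 1) :
    ⁅x * y, x * s⁆ ^ 3 = 1 ∧ ⁅⁅x * y, x * s⁆, x * y⁆ = 1 ∧ ⁅⁅x * y, x * s⁆, x * s⁆ = 1 := by
  simp only [pow_succ, pow_zero, one_mul, mul_assoc] at h1 h2 h3 h4
  have := imp_univ impg (fun i => [x, y, s].getD i 1) (by
    simp only [List.forall_mem_cons, ev_cons, ev_nil, List.getD_cons_zero, List.getD_cons_succ, mul_one]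
    exact ⟨hx, hy, hs, h1, h2, h3, h4, by simp⟩)
  simp only [RM11g.l0W, List.forall_mem_cons, ev_cons, ev_nil, List.getD_cons_zero, List.getD_cons_succ,
    mul_one] at this
  simp only [commutatorElement_def, pow_succ, pow_zero, one_mul, mul_assoc, mul_inv_rev,
    inv_eq_of_mul_eq_one_right hx, inv_eq_of_mul_eq_one_right hy, inv_eq_of_mul_eq_one_right hs]
  exact ⟨this.1, this.2.1, this.2.2.1⟩

theorem good_aux {R : List (List ℕ)} (hb : Bounds R [0, 1, 2, 3, 4] 7920) {I W : List (List ℕ)}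
    {a5 b5 a11 b11 : List ℕ}
    (h1 : allL (fun r => eqW CG.M11.act.app CG.M11.bs (substW (nth I []) r) []) R = true)
    (h2 : lettersIn [0, 1, 2, 3, 4] W = true) (h2' : W.length = 3)
    (h3 : allL (fun a => eqW CG.M11.act.app CG.M11.bs (substW (nth I []) (nth W [] a)) [a]) [0, 1, 2] = true)
    (h4 : allL (fun r => eqW CG.M11.act.app CG.M11.bs (substW (nth I []) r) [])
      [(List.replicate 5 a5).flatten, (List.replicate 5 b5).flatten, a5 ++ b5 ++ [2],
        (List.replicate 11 a11).flatten, (List.replicate 11 b11).flatten, a11 ++ b11 ++ [2]] = true)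
    (hc : Nat.card Γ = 7920) (y : ℕ → Γ) (hR : ∀ r ∈ R, ev y r = 1)
    (h144 : 144 ∣ Nat.card (cl y [0, 1, 2, 3, 4])) (hy : y 2 ≠ 1) : Nonempty (Γ ≃* Cfsg.Spor.M11) := by
  have hf : Finite Γ := Nat.finite_of_card_ne_zero (by rw [hc]; decide)
  let gen : ℕ → CG.M11.PG := fun a => ev CG.M11.act.gen (nth I [] a)
  have hev : ∀ r, eqW CG.M11.act.app CG.M11.bs (substW (nth I []) r) [] = true → ev gen r = 1 := fun r hr => by
    rw [← ev_substW]; exact CG.M11.base.ev_eq hr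
  have hS : cl gen [0, 1, 2, 3, 4] = ⊤ := by
    rw [eq_top_iff, ← CG.M11.tabOK.cl_eq_top]
    refine cl_le _ fun a ha => ?_
    have ha' : a < 3 := List.mem_range.1 ha
    have e := CG.M11.base.ev_eq ((allL_iff _ _).1 h3 a (by simp; omega))
    rw [ev_singleton, ev_substW] at e
    have e : ev gen (nth W [] a) = CG.M11.tabOK.act.gen a := e
    rw [← e]
    refine ev_mem _ fun b hb => gen_mem_cl _ (lettersIn_iff.1 h2 _ ?_ b hb)
    rw [nth_eq, List.getD_eq_getElem _ _ (by omega)]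
    exact List.getElem_mem _
  obtain ⟨f, hf'⟩ := hb.lift (fun r hr => hev r ((allL_iff _ _).1 h1 r hr)) hS CG.M11.card.ge y hR
  have hr : f.range = cl y [0, 1, 2, 3, 4] := by
    rw [MonoidHom.range_eq_map, ← hS, map_cl]
    unfold cl; congr 1
    exact Set.image_congr fun a ha => hf' a ha
  have k := f.ker.index_mul_card
  rw [Subgroup.index_ker, CG.M11.card] at k
  have kill : ∀ p : ℕ, p.Prime → ¬ p ∣ Nat.card f.range → ∀ a b : List ℕ, ev gen (List.replicate p a).flatten = 1 →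
      ev gen (List.replicate p b).flatten = 1 → ev gen (a ++ b ++ [2]) = 1 → False := by
    intro p hp hn a b ha hb hab
    have key : ∀ x : CG.M11.PG, x ^ p = 1 → f x = 1 := fun x hx => by
      have d1 : orderOf (f x) ∣ p := orderOf_dvd_of_pow_eq_one (by rw [← map_pow, hx, map_one])
      have d2 : orderOf (f x) ∣ Nat.card f.range := f.range.orderOf_dvd_natCard ⟨x, rfl⟩
      rcases (Nat.dvd_prime hp).1 d1 with e | e
      · exact orderOf_eq_one_iff.1 e
      · exact absurd (e ▸ d2) hn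
    rw [ev_replicate] at ha hb
    have := congrArg f hab
    rw [ev_append, ev_append, map_mul, map_mul, key _ ha, key _ hb, ev_singleton, hf' 2 (by simp), map_one] at this
    exact hy (by simpa using this)
  rw [allL_iff] at h4
  have n5 : 5 ∣ Nat.card f.range := by
    by_contra hn
    exact kill 5 (by norm_num) hn a5 b5 (hev _ (h4 _ (by simp))) (hev _ (h4 _ (by simp))) (hev _ (h4 _ (by simp)))
  have n11 : 11 ∣ Nat.card f.range := by
    by_contra hn
    exact kill 11 (by norm_num) hn a11 b11 (hev _ (h4 _ (by simp))) (hev _ (h4 _ (by simp)))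
      (hev _ (h4 _ (by simp)))
  rw [← hr] at h144
  have hle : Nat.card f.range ≤ 7920 := hc ▸ Subgroup.card_le_card_group f.range
  have hpos : 0 < Nat.card f.range := Nat.card_pos
  have htop : f.range = ⊤ := Subgroup.eq_top_of_card_eq _ (by rw [hc]; omega)
  have hbij : Function.Bijective f :=
    (MonoidHom.range_eq_top.1 htop).bijective_of_nat_card_le (by rw [hc, CG.M11.card])
  obtain ⟨e⟩ := Id.M11.iso
  exact ⟨(MulEquiv.ofBijective f hbij).symm.trans e.symm⟩

theorem good_a (hc : Nat.card Γ = 7920) (y : ℕ → Γ) (hR : ∀ r ∈ Rb ++ [[4,0,0,4,1,2]], ev y r = 1)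
    (h144 : 144 ∣ Nat.card (cl y [0, 1, 2, 3, 4])) (hy : y 2 ≠ 1) : Nonempty (Γ ≃* Cfsg.Spor.M11) :=
  good_aux RM11a.bounds0 (I := [[2, 0, 2, 0, 1, 0, 2, 0], [0, 1, 0, 2, 0, 1, 0, 1], [1, 1, 0, 1, 1],
      [1, 0, 1, 0, 2, 0, 1, 0, 2, 0, 2], [0]])
    (W := [[4], [0, 3, 1, 2, 4, 3, 1, 3], [0, 3, 0, 0, 3, 4, 3, 1]]) (a5 := [1, 4, 3]) (b5 := [2, 3, 1, 4])
    (a11 := [0, 3, 0, 4, 3, 0, 4]) (b11 := [4, 1, 3, 4, 1, 3, 1, 2]) (by decide +kernel) (by decide +kernel) rfl
    (by decide +kernel) (by decide +kernel) hc y hR h144 hy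

theorem good_b (hc : Nat.card Γ = 7920) (y : ℕ → Γ) (hR : ∀ r ∈ Rb ++ [[4,0,0,4,0,2]], ev y r = 1)
    (h144 : 144 ∣ Nat.card (cl y [0, 1, 2, 3, 4])) (hy : y 2 ≠ 1) : Nonempty (Γ ≃* Cfsg.Spor.M11) :=
  good_aux RM11b.bounds0 (I := [[1, 0, 2, 0, 1, 1, 0, 1, 0], [0, 2, 0, 1, 1, 0, 1, 0, 2],
      [2, 0, 1, 0, 2, 0, 1, 0, 2, 0, 1], [0], [1, 1, 0, 1, 1]])
    (W := [[3], [1, 1, 4, 3, 0, 4, 3, 1, 4, 0], [1, 1, 1, 4, 3, 0, 4, 3, 1, 4]]) (a5 := [1, 2, 4, 3])
    (b5 := [2, 3, 1, 4, 0]) (a11 := [1, 3, 4, 3, 0, 4, 3]) (b11 := [3, 0, 4, 3, 1, 3, 4]) (by decide +kernel)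
    (by decide +kernel) rfl (by decide +kernel) (by decide +kernel) hc y hR h144 hy

end

end Cfsg.Agent.Rec.M11
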