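import Cfsg.Agent.Lib.Rec.M11Loc
import Cfsg.Agent.Lib.Rec.M11Pres

/-! Recognition of `M₁₁` by its order and its centraliser orders. -/

set_option autoImplicit false

namespace Cfsg.Agent.Rec.M11

open Subgroup Cfsg.Agent.CG Cfsg.Agent.TCX
open scoped commutatorElement

variable {G : Type*} [Group G]

theorem eq_of_comm {a b : G} (ha : a * a = 1) (hb : b * b = 1) (h : a * b = b * a) (h3 : (a * b) ^ 3 = 1) :
    a = b := by
  have h2 := sq_comm ha hb h
  have : a * b = 1 := by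
    calc a * b = a * b * (a * (b * (a * b))) := by rw [h2, mul_one]
      _ = 1 := by rw [← h3]; simp only [pow_succ, pow_zero, one_mul, mul_assoc]
  exact mul_right_cancel (this.trans hb.symm)

theorem cube_swap {a b : G} (h : (a * b) ^ 3 = 1) : (b * a) ^ 3 = 1 := by
  calc (b * a) ^ 3 = a⁻¹ * (a * b) ^ 3 * a := by simp only [pow_succ, pow_zero, one_mul, mul_assoc]; group
    _ = 1 := by rw [h]; simp

theorem Cox.symm {a b c : G} (h : Cox a b c) : Cox c b a :=
  ⟨h.cc, h.bb, h.aa, cube_swap h.bc, cube_swap h.ab, h.ac.symm, h.ne.symm⟩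

theorem Cox.not_comm {a b c : G} (h : Cox a b c) : a * b ≠ b * a := fun e => by
  have e1 := eq_of_comm h.aa h.bb e h.ab
  exact h.ne (e1.trans (eq_of_comm h.bb h.cc (e1 ▸ h.ac) h.bc))

theorem Cox.ne_one {a b c : G} (h : Cox a b c) : c ≠ 1 := fun e => h.symm.not_comm (by simp [e])

theorem Cox.ord {a b c : G} (h : Cox a b c) : orderOf (b * c) = 3 :=
  ord_three h.bc fun e => h.symm.not_comm ((mul_eq_one_comm.1 e).trans e.symm)

theorem pgroup_zp {w : G} (hw : w ^ 8 = 1) : IsPGroup 2 (zpowers w) := fun g => ⟨3, by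
  obtain ⟨n, hn⟩ := mem_zpowers_iff.1 g.2
  apply Subtype.ext
  show (g : G) ^ 8 = 1
  rw [← hn, ← zpow_natCast, ← zpow_mul, mul_comm, zpow_mul, zpow_natCast, hw, one_zpow]⟩

theorem eight_of_sq {x : G} (hx : x * x = 1) : x ^ 8 = 1 := by
  rw [show 8 = 2 * 4 from rfl, pow_mul, sq, hx, one_pow]

theorem mem_norm_zp [Finite G] {x w : G} (h : x * w * x⁻¹ ∈ zpowers w) : x ∈ normalizer (zpowers w : Set G) := by
  refine mem_normalizer_fintype fun n hn => ?_
  obtain ⟨k, rfl⟩ := mem_zpowers_iff.1 hn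
  rw [← conj_zpow]
  exact zpow_mem h k

theorem sq_conj_mem {H : Type*} [Group H] [Finite H] {S : Subgroup H} (hS : S.index = 3) {g : H} (hg : g ∈ S)
    (k : H) : k * (g * g) * k⁻¹ ∈ S := by
  have h1 : S.normalCore.index ∣ S.index.factorial := by
    rw [normalCore_eq_ker, index_ker, index_eq_card, ← Nat.card_perm]
    exact card_subgroup_dvd_card (MulAction.toPermHom H (H ⧸ S)).range
  rw [← relIndex_mul_index S.normalCore_le, hS] at h1
  obtain ⟨d, hd⟩ : (S.normalCore.subgroupOf S).index ∣ 2 :=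
    Nat.dvd_of_mul_dvd_mul_right (by decide : 0 < 3) h1
  have h2 := pow_mem ((S.normalCore.subgroupOf S).pow_index_mem ⟨g, hg⟩) d
  rw [← pow_mul, ← hd] at h2
  have h3 : g ^ 2 ∈ S.normalCore := h2
  rw [← sq]
  exact h3 k

namespace Hyp

variable (h : Hyp G)
include h

theorem exists_psi {X : Subgroup G} (hX : IsPGroup 2 X) :
    ∃ ψ : SD →* G, Function.Injective ψ ∧ X ≤ ψ.range := by
  have := h.finite
  have := Fact.mk Nat.prime_three
  obtain ⟨P⟩ : Nonempty (Sylow 3 G) := inferInstance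
  obtain ⟨φ, hj, -, -⟩ := h.exists_phi P
  let ψ0 : SD →* G := φ.comp SemidirectProduct.inr
  have h0 : Function.Injective ψ0 := hj.comp SemidirectProduct.inr_injective
  let A : Sylow 2 G := Sylow.ofCard ψ0.range (by
    rw [h.card, show 7920 = 2 ^ 4 * 495 by norm_num, fact_pow Nat.prime_two (by decide),
      ← Nat.card_congr (MonoidHom.ofInjective h0).toEquiv, card_SD]; rfl)
  obtain ⟨Q, hQ⟩ := hX.exists_le_sylow
  obtain ⟨g, hg⟩ := MulAction.exists_smul_eq G A Q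
  refine ⟨(MulAut.conj g).toMonoidHom.comp ψ0, (MulAut.conj g).injective.comp h0, fun x hx => ?_⟩
  have := hQ hx
  rw [← hg, Sylow.smul_def, Sylow.pointwise_smul_def] at this
  obtain ⟨y, ⟨s, rfl⟩, rfl⟩ := (mem_smul_pointwise_iff_exists _ _ _).1 this
  exact ⟨s, rfl⟩

theorem two_comm {x y z : G} (hx : x * x = 1) (hy : y * y = 1) (hz : z * z = 1) (hz1 : z ≠ 1)
    (h1 : z * x = x * z) (h2 : z * y = y * z) (h8 : (x * y) ^ 8 = 1) :
    x * y = 1 ∨ x * y = z ∨ x * y * (x * y) = z ∨ x = z ∨ y = z ∨ x = 1 ∨ y = 1 := by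
  have := h.finite
  have p1 : IsPGroup 2 (zpowers x ⊔ zpowers (x * y) : Subgroup G) :=
    (pgroup_zp (eight_of_sq hx)).to_sup_of_normal_right' (pgroup_zp h8) (by
      rw [zpowers_le]
      refine mem_norm_zp ?_
      have : x * (x * y) * x⁻¹ = (x * y)⁻¹ := by
        rw [← mul_assoc, hx, one_mul, mul_inv_rev, inv_eq_of_mul_eq_one_right hy]
      rw [this]; exact inv_mem (mem_zpowers _))
  have p2 : IsPGroup 2 ((zpowers x ⊔ zpowers (x * y)) ⊔ zpowers z : Subgroup G) :=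
    p1.to_sup_of_normal_right' (pgroup_zp (eight_of_sq hz)) (by
      rw [sup_le_iff, zpowers_le, zpowers_le]
      constructor <;> refine mem_norm_zp ?_
      · rw [← h1, mul_inv_cancel_right]; exact mem_zpowers _
      · rw [mul_assoc x, ← h2, ← mul_assoc, ← h1, mul_assoc z, mul_inv_cancel_right]; exact mem_zpowers _)
  obtain ⟨ψ, hj, hle⟩ := h.exists_psi p2
  have m1 : x ∈ ψ.range := hle (mem_sup_left (mem_sup_left (mem_zpowers _)))
  have m2 : x * y ∈ ψ.range := hle (mem_sup_left (mem_sup_right (mem_zpowers _)))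
  obtain ⟨c, rfl⟩ : z ∈ ψ.range := hle (mem_sup_right (mem_zpowers _))
  obtain ⟨b, rfl⟩ := (mul_mem_cancel_left m1).1 m2
  obtain ⟨a, rfl⟩ := m1
  simp only [← map_mul, ← map_one ψ, Ne, hj.eq_iff] at hx hy hz hz1 h1 h2 ⊢
  exact sd_comm a b c hx hy hz hz1 h1 h2

theorem psi_cent {z y : G} (hz : z * z = 1) (hz1 : z ≠ 1) (hy : y * y = 1) (hc : y * z = z * y) :
    ∃ ψ : SD →* G, Function.Injective ψ ∧ ψ Z = z ∧ ∃ x, ψ x = y := by
  have := h.finite
  have p1 : IsPGroup 2 (zpowers y ⊔ zpowers z : Subgroup G) :=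
    (pgroup_zp (eight_of_sq hy)).to_sup_of_normal_right' (pgroup_zp (eight_of_sq hz)) (by
      rw [zpowers_le]
      refine mem_norm_zp ?_
      rw [hc, mul_inv_cancel_right]; exact mem_zpowers _)
  obtain ⟨Q, hQ⟩ := (p1.comap_subtype (K := centralizer ({z} : Set G))).exists_le_sylow
  have cQ : Nat.card Q = 16 := by
    rw [Q.card_eq_multiplicity, h.c2 (ord_two hz hz1), show 48 = 2 ^ 4 * 3 by norm_num,
      fact_pow Nat.prime_two (by decide)]
    rfl
  obtain ⟨ψ, hj, hle⟩ := h.exists_psi (Q.isPGroup'.map (centralizer ({z} : Set G)).subtype)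
  have he := eq_of_le_of_card_ge hle (by
    rw [← Nat.card_congr (MonoidHom.ofInjective hj).toEquiv, card_SD, card_map_of_injective (subtype_injective _)]
    exact cQ.ge)
  obtain ⟨c, rfl⟩ : z ∈ ψ.range := hle ⟨⟨z, mem_cent.2 rfl⟩, hQ (mem_sup_right (mem_zpowers _)), rfl⟩
  refine ⟨ψ, hj, ?_, hle ⟨⟨y, mem_cent.2 hc⟩, hQ (mem_sup_left (mem_zpowers _)), rfl⟩⟩
  rw [sd_center c (fun e => hz1 (by rw [e, map_one])) fun s => hj ?_]
  obtain ⟨q, -, hq⟩ : ψ s ∈ map (centralizer ({ψ c} : Set G)).subtype Q := he ▸ ⟨s, rfl⟩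
  rw [map_mul, map_mul, ← hq]
  exact (mem_cent.1 q.2).symm

theorem cube_of_four {y r w : G} (hy : y * y = 1) (hr : r * r = 1) (hy1 : y ≠ 1) (hr1 : r ≠ 1) (hne : y ≠ r)
    (hc : y * r = r * y) (h1 : w * y = r * w) (h2 : w * r = r * y * w) : w ^ 3 = 1 := by
  have := h.finite
  have h3 : w * (r * y) = y * w := by
    rw [← mul_assoc, h2, mul_assoc, h1, ← mul_assoc, mul_assoc r, hc, ← mul_assoc, hr, one_mul]
  have c1 : w ^ 3 * y = y * w ^ 3 := by
    simp only [pow_succ, pow_zero, one_mul]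
    rw [mul_assoc, h1, ← mul_assoc, mul_assoc w, h2, ← mul_assoc, h3]; simp only [mul_assoc]
  have c2 : w ^ 3 * r = r * w ^ 3 := by
    simp only [pow_succ, pow_zero, one_mul]
    rw [mul_assoc, h2, ← mul_assoc, mul_assoc w, h3, ← mul_assoc, h1]; simp only [mul_assoc]
  have n1 : w * y ≠ y * w := fun e => hne (mul_right_cancel (e.symm.trans h1))
  have n2 : w * r ≠ r * w := fun e => hy1 (by simpa using mul_right_cancel (e.symm.trans h2))
  have n3 : w * (r * y) ≠ r * y * w := fun e => hr1 (by simpa using mul_right_cancel (e.symm.trans h3))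
  have cop : ¬ Nat.Coprime 3 (orderOf w) := fun e => by
    obtain ⟨m, hm⟩ := exists_pow_eq_self_of_coprime e
    exact n1 (hm ▸ (show Commute (w ^ 3) y from c1).pow_left m)
  have hw : w ≠ 1 := fun e => n1 (by simp [e])
  have cw : w * w ^ 3 = w ^ 3 * w := (Commute.self_pow w 3).eq
  have h36 : orderOf w = 3 ∨ orderOf w = 6 := by
    rcases h.cases hw with e | e | e | e | e | e | e <;> rw [e.1] at cop ⊢ <;> revert cop <;> decide
  rcases h36 with e | e
  · rw [← e, pow_orderOf_eq_one]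
  · by_contra hx
    have hxx : w ^ 3 * w ^ 3 = 1 := by
      rw [← pow_add, ← orderOf_dvd_iff_pow_eq_one, e]
    have hyr := sq_comm hy hr hc
    rcases h.two_comm hy hr hxx hx c1 c2 (eight_of_sq (by rw [mul_assoc, hyr])) with e | e | e | e | e | e | e
    · exact hne (mul_right_cancel (e.trans hr.symm))
    · exact n3 (by rw [← hc, e, cw])
    · exact hx (by rw [← e, mul_assoc, hyr])
    · exact n1 (by rw [e, cw])
    · exact n2 (by rw [e, cw])
    · exact hy1 e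
    · exact hr1 e

theorem exists_cox : ∃ a b c : G, Cox a b c := by
  obtain ⟨ψ, hj, -⟩ := h.exists_psi (IsPGroup.of_bot (G := G))
  have tr1 : ∀ s : SD, s * s = 1 → ψ s * ψ s = 1 := fun s hs => by rw [← map_mul, hs, map_one]
  have tr2 : ∀ s : SD, s ≠ 1 → ψ s ≠ 1 := fun s hs e => hs (hj (e.trans ψ.map_one.symm))
  have hy := tr1 Z (by decide)
  have hr := tr1 ⟨0, true⟩ (by decide)
  have hy1 := tr2 Z (by decide)
  have hr1 := tr2 ⟨0, true⟩ (by decide)
  have hne : ψ Z ≠ ψ ⟨0, true⟩ := fun e => absurd (hj e) (by decide)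
  have hc : ψ Z * ψ ⟨0, true⟩ = ψ ⟨0, true⟩ * ψ Z := by rw [← map_mul, ← map_mul]; rfl
  obtain ⟨χ, hi, e1, x, e2⟩ := h.psi_cent hr hr1 hy hc
  obtain ⟨b, b1, b2⟩ := sd_four x (hi (by rw [map_mul, e2, hy, map_one])) (fun e => hy1 (by rw [← e2, e, map_one]))
    (fun e => hne (by rw [← e2, e, e1]))
  have b3 : χ b * χ b = 1 := by rw [← map_mul, b1, map_one]
  have b4 : χ b * ψ Z = ψ Z * ψ ⟨0, true⟩ * χ b := by
    have := congrArg χ b2
    rw [map_mul, map_mul, map_mul, e1, e2] at this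
    rw [← this, mul_assoc, b3, mul_one]
  have b5 : χ b * ψ ⟨0, true⟩ = ψ ⟨0, true⟩ * χ b := by
    rw [← e1, ← map_mul, ← map_mul, (by decide : ∀ b : SD, b * Z = Z * b) b]
  have key : ∀ a : SD, a * (Z * ⟨0, true⟩) = ⟨0, true⟩ * a → a * ⟨0, true⟩ = ⟨0, true⟩ * Z * a →
      (ψ a * χ b) ^ 3 = 1 := fun a a1 a2 => by
    refine h.cube_of_four hy hr hy1 hr1 hne hc ?_ ?_
    · rw [mul_assoc, b4, ← mul_assoc, ← mul_assoc, ← mul_assoc]
      simp only [← map_mul]
      rw [← a1, mul_assoc a]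
    · rw [mul_assoc, b5, ← mul_assoc, ← mul_assoc]
      simp only [← map_mul]
      rw [a2]
  refine ⟨ψ ⟨6, true⟩, χ b, ψ ⟨2, true⟩, tr1 _ (by decide), b3, tr1 _ (by decide), key _ (by decide) (by decide),
    cube_swap (key _ (by decide) (by decide)), ?_, fun e => absurd (hj e) (by decide)⟩
  rw [← map_mul, ← map_mul]; rfl

theorem cube_cox {a b c y : G} (hc : Cox a b c) (hy : y * y = 1) (hy1 : y ≠ 1) (h1 : y * b = b * y)
    (h2 : y * c = c * y) : (y * a) ^ 3 = 1 := by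
  have := h.finite
  have cw : c * (y * a) = y * a * c := by rw [← mul_assoc, ← h2, mul_assoc, ← hc.ac, mul_assoc]
  have two : (y * a) ^ 8 ≠ 1 := fun h8 => by
    rcases h.two_comm hy hc.aa hc.cc hc.ne_one h2.symm hc.ac.symm h8 with e | e | e | e | e | e | e
    · exact hc.not_comm ((mul_right_cancel (e.trans hc.aa.symm) : y = a) ▸ h1)
    · have e1 : a = y * c := by rw [← e, ← mul_assoc, hy, one_mul]
      have e2 := hc.ab
      have cm : Commute y (c * b) := (show Commute y c from h2).mul_right h1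
      rw [e1, mul_assoc, cm.mul_pow, cube_swap hc.bc, mul_one, pow_succ, sq, hy, one_mul] at e2
      exact hy1 e2
    · exact hc.not_four hy h1 h2 e
    · exact hc.symm.not_comm (e ▸ h1)
    · exact hc.ne e
    · exact hy1 e
    · exact hc.symm.ne_one e
  have hw : y * a ≠ 1 := fun e => two (by simp [e])
  have d : 2 ∣ Nat.card (centralizer ({y * a} : Set G)) :=
    ord_two hc.cc hc.ne_one ▸ (centralizer ({y * a} : Set G)).orderOf_dvd_natCard (mem_cent.2 cw)
  rw [Ne, ← orderOf_dvd_iff_pow_eq_one] at two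
  have h36 : orderOf (y * a) = 3 ∨ orderOf (y * a) = 6 := by
    rcases h.cases hw with e | e | e | e | e | e | e <;> rw [e.1] at two ⊢ <;> rw [e.2] at d <;> omega
  rcases h36 with e | e
  · rw [← e, pow_orderOf_eq_one]
  · exact absurd (h.eq_cube e hc.cc hc.ne_one cw) (hc.not_six hy h1 h2)

theorem diag {a b c : G} (hc : Cox a b c) : ∃ (φ : NM →* G) (v : V) (n : NM) (y : G), Function.Injective φ ∧
    v ≠ 1 ∧ φ (tr v) = b * c ∧ φ n = c ∧ n.right = Z ∧ y * y = 1 ∧ y ≠ 1 ∧ y * b = b * y ∧ y * c = c * y ∧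
      ∀ g, g * (b * c) = b * c * g → ∃ m, φ m = g := by
  obtain ⟨φ, hj, ⟨v, hv, ev⟩, hall⟩ := h.exists_phi_three hc.ord
  have hinv : (b * c)⁻¹ = c * b := by
    rw [mul_inv_rev, inv_eq_of_mul_eq_one_right hc.bb, inv_eq_of_mul_eq_one_right hc.cc]
  obtain ⟨n, en⟩ := hall c (Or.inr (by rw [hinv, mul_assoc]))
  obtain ⟨y, y1, y2, y3, y4, y5⟩ := nm_cent v hv n (hj (by rw [map_mul, en, hc.cc, map_one])) (hj (by
    rw [map_mul, map_mul, map_inv, en, ev, hinv, mul_assoc, mul_assoc, hc.cc, mul_one]))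
  have cb : ∀ m : NM, m * tr v = tr v * m → m * n = n * m → φ m * b = b * φ m ∧ φ m * c = c * φ m := by
    intro m m1 m2
    have m1 := congrArg φ m1
    have m2 := congrArg φ m2
    rw [map_mul, map_mul] at m1 m2
    rw [ev] at m1
    rw [en] at m2
    refine ⟨mul_right_cancel (b := c) ?_, m2⟩
    rw [mul_assoc, m1, mul_assoc, mul_assoc, m2]
  have yy : φ y * φ y = 1 := by rw [← map_mul, y1, map_one]
  have y0 : φ y ≠ 1 := fun e => y2 (hj (e.trans φ.map_one.symm))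
  obtain ⟨yb, yc⟩ := cb y y3 y4
  refine ⟨φ, v, n, φ y, hj, hv, ev, en, y5.resolve_right ?_, yy, y0, yb, yc, fun g hg => hall g (Or.inl hg)⟩
  rintro ⟨w, w1, w2, w3⟩
  obtain ⟨wb, wc⟩ := cb (tr w) ((by decide +kernel : ∀ v w : V, tr w * tr v = tr v * tr w) v w) w2
  have w3 := congrArg φ w3
  rw [map_mul, map_mul, map_inv] at w3
  have w4 : φ (tr w) ^ 3 = 1 := by rw [← map_pow, (by decide +kernel : ∀ w : V, tr w ^ 3 = 1) w, map_one]
  have w5 : φ (tr w) ≠ 1 := fun e =>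
    w1 ((by decide +kernel : ∀ w : V, tr w = 1 → w = 1) w (hj (e.trans φ.map_one.symm)))
  generalize φ (tr w) = W at *
  generalize φ y = Y at *
  have cu : ∀ X : G, Y * X * Y = X⁻¹ → X ^ 3 = 1 → X ≠ 1 → X * b = b * X → X * c = c * X →
      X * Y * (X * Y) = 1 ∧ (X * Y * a) ^ 3 = 1 := fun X x1 x2 x3 x4 x5 => by
    have xx : X * Y * (X * Y) = 1 := by
      rw [mul_assoc, ← mul_assoc Y, x1, mul_inv_cancel]
    refine ⟨xx, h.cube_cox hc xx (fun e => x3 ?_) ?_ ?_⟩
    · have e1 : X = Y := mul_right_cancel (e.trans yy.symm)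
      rw [e1, pow_succ, sq, yy, one_mul] at x2
      exact e1.trans x2
    · rw [mul_assoc, yb, ← mul_assoc, x4, mul_assoc]
    · rw [mul_assoc, yc, ← mul_assoc, x5, mul_assoc]
  obtain ⟨u1, u2⟩ := cu W w3 w4 w5 wb wc
  have ib : W⁻¹ * b = b * W⁻¹ := (show Commute W b from wb).inv_left
  have ic : W⁻¹ * c = c * W⁻¹ := (show Commute W c from wc).inv_left
  have i3 : W⁻¹ ^ 3 = 1 := by rw [inv_pow, w4, inv_one]
  have i1 : W⁻¹ ≠ 1 := inv_ne_one.2 w5
  obtain ⟨-, u3⟩ := cu W⁻¹ (by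
    rw [inv_inv, ← w3, ← mul_assoc, ← mul_assoc, yy, one_mul, mul_assoc, yy, mul_one]) i3 i1 ib ic
  have e0 : Y * (W * Y) = W⁻¹ := by rw [← mul_assoc, w3]
  obtain ⟨t1, t2, t3⟩ := triangle yy u1 hc.aa (by rw [e0, i3]) (h.cube_cox hc yy y0 yb yc) u2 (by rw [e0, u3])
  rw [e0] at t1 t2 t3
  have dc : Y * a * c = c * (Y * a) := by rw [mul_assoc, hc.ac, ← mul_assoc, yc, mul_assoc]
  have d3 := h.cube_cox hc yy y0 yb yc
  have oc := ord_two hc.cc hc.ne_one
  have cm : Commute W⁻¹ (Y * a) := by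
    by_contra hn
    have z1 : ⁅W⁻¹, Y * a⁆ ≠ 1 := fun e => hn (commutatorElement_eq_one_iff_commute.1 e)
    have zc : Commute ⁅W⁻¹, Y * a⁆ c := by
      have k1 : Commute W⁻¹ c := ic
      have k2 : Commute (Y * a) c := dc
      rw [commutatorElement_def]
      exact ((k1.mul_left k2).mul_left k1.inv_left).mul_left k2.inv_left
    obtain ⟨i, hi⟩ := mem_zpowers_iff.1 (h.mem_three (ord_three t1 z1) oc zc
      (commutatorElement_eq_one_iff_commute.1 t2).symm ic i3)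
    obtain ⟨j, hj⟩ := mem_zpowers_iff.1 (h.mem_three (ord_three t1 z1) oc zc
      (commutatorElement_eq_one_iff_commute.1 t3).symm dc d3)
    generalize ⁅W⁻¹, Y * a⁆ = ζ at hi hj
    exact hn (hi ▸ hj ▸ Commute.zpow_zpow_self ζ i j)
  obtain ⟨i, hi⟩ := mem_zpowers_iff.1 (h.mem_three (ord_three i3 i1) oc ic cm.symm dc d3)
  have k3 : Commute (Y * a) b := hi ▸ (show Commute W⁻¹ b from ib).zpow_left i
  have k4 := (show Commute Y b from yb).mul_left k3
  rw [← mul_assoc, yy, one_mul] at k4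
  exact hc.not_comm k4

theorem iso : Nonempty (G ≃* Cfsg.Spor.M11) := by
  have := h.finite
  obtain ⟨s1, s2, s3, hc⟩ := h.exists_cox
  obtain ⟨-, -, -, y, -, -, -, -, -, yy, y0, y2, y3, -⟩ := h.diag hc
  have y1 := h.cube_cox hc yy y0 y2 y3
  have hc' : Cox s2 s1 y := ⟨hc.bb, hc.aa, yy, cube_swap hc.ab, cube_swap y1, y2.symm,
    fun e => hc.symm.not_comm (e ▸ y3.symm)⟩
  obtain ⟨φ0, v, n, -, hj0, hv, ev0, en, hn, -, -, -, -, hall⟩ := h.diag hc'
  obtain ⟨m, em⟩ := hall s3 (by rw [← mul_assoc, ← hc.ac, mul_assoc, ← y3, mul_assoc])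
  obtain ⟨k, k1, k2, k3⟩ := nm_norm v hv n hn m (hj0 (by rw [map_mul, em, hc.cc, map_one]))
    (fun e => hc.ne_one (by rw [← em, e, map_one])) (hj0 (by rw [map_mul, map_mul, em, en, y3]))
    (hj0 (by rw [map_mul, map_mul, em, ev0, ← mul_assoc, ← hc.ac, mul_assoc, ← y3, mul_assoc]))
  let φ : NM →* G := φ0.comp (MulAut.conj k⁻¹).toMonoidHom
  have hj : Function.Injective φ := hj0.comp (MulAut.conj k⁻¹).injective
  have hφ : ∀ a b, k * a = b * k → φ b = φ0 a := fun a b e => by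
    show φ0 (k⁻¹ * b * k⁻¹⁻¹) = _
    rw [inv_inv, mul_assoc, ← e, inv_mul_cancel_left]
  have eY : φ (ln Z) = y := (hφ _ _ k1).trans en
  have e3 : φ (gens 3) = s1 := by
    show φ (tr ⟨1, 0⟩ * ln Z) = s1
    rw [map_mul, hφ _ _ k2, ev0, eY, mul_assoc, yy, mul_one]
  have e2 : φ (gens 2) = s3 := (hφ _ _ k3).trans em
  clear_value φ
  let g : ℕ → G := fun a => if a = 4 then s2 else φ (gens a)
  have hev : ∀ w : List ℕ, (∀ a ∈ w, a ≠ 4) → ev g w = φ (ev gens w) := fun w hw => by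
    rw [map_ev]; exact ev_congr _ fun a ha => if_neg (hw a ha)
  have e4 : ev g [0, 0, 0, 0] = y := by
    rw [hev _ (by decide), ← eY]; congr 1
  have g2 : g 2 = s3 := e2
  have g3 : g 3 = s1 := e3
  have g4 : g 4 = s2 := rfl
  have hRb : ∀ r ∈ Rb, ev g r = 1 := by
    refine List.forall_mem_append.2 ⟨fun r hr => ?_, ?_⟩
    · rw [hev r ((by decide : ∀ r ∈ RN, ∀ a ∈ r, a ≠ 4) r hr), rels_gens r hr, map_one]
    · have h1 := hc.ab
      have h2 := hc.bc
      simp only [pow_succ, pow_zero, one_mul, mul_assoc] at h1 h2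
      have h3 : ev g ([4] ++ [0, 0, 0, 0] ++ [4] ++ [0, 0, 0, 0]) = 1 := by
        simp only [ev_append, e4, ev_singleton, g4, mul_assoc]
        exact sq_comm hc.bb yy y2.symm
      simp only [List.forall_mem_cons]
      refine ⟨?_, ?_, ?_, h3, by simp⟩ <;> simp only [ev_cons, ev_nil, mul_one, g2, g3, g4]
      exacts [hc.bb, h1, h2]
  have h144 : 144 ∣ Nat.card (cl g [0, 1, 2, 3, 4]) := by
    rw [← card_NM, Nat.card_congr (MonoidHom.ofInjective hj).toEquiv]
    refine card_dvd_of_le ?_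
    rintro _ ⟨x, rfl⟩
    have m0 : φ (gens 0) ∈ cl g [0, 1, 2, 3, 4] := gen_mem_cl g (a := 0) (by simp)
    have m1 : φ (gens 1) ∈ cl g [0, 1, 2, 3, 4] := gen_mem_cl g (a := 1) (by simp)
    have m2 : φ (gens 2) ∈ cl g [0, 1, 2, 3, 4] := gen_mem_cl g (a := 2) (by simp)
    have m3 : φ (gens 3) ∈ cl g [0, 1, 2, 3, 4] := gen_mem_cl g (a := 3) (by simp)
    rw [gen_eq x]
    simp only [map_mul, map_pow]
    exact mul_mem (mul_mem (mul_mem (pow_mem (mul_mem m3 (pow_mem m0 _)) _)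
      (pow_mem (mul_mem (mul_mem (pow_mem m1 _) m3) (pow_mem m0 _)) _)) (pow_mem m0 _)) (pow_mem m2 _)
  let ψ : SD →* G := φ.comp SemidirectProduct.inr
  have hψ : Function.Injective ψ := hj.comp SemidirectProduct.inr_injective
  have eψ : ∀ s, ψ s = φ (ln s) := fun _ => rfl
  have hle : ψ.range ≤ centralizer ({y} : Set G) := by
    rintro _ ⟨s, rfl⟩
    rw [mem_cent, ← eY, ← eψ, ← map_mul, ← map_mul, (by decide : ∀ b : SD, b * Z = Z * b) s]
  have hidx : (ψ.range.subgroupOf (centralizer ({y} : Set G))).index = 3 := by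
    have h2 := (ψ.range.subgroupOf (centralizer ({y} : Set G))).index_mul_card
    rw [Nat.card_congr (subgroupOfEquivOfLe hle).toEquiv, h.c2 (ord_two yy y0),
      ← Nat.card_congr (MonoidHom.ofInjective hψ).toEquiv, card_SD] at h2
    omega
  obtain ⟨s, es⟩ : s2 * ψ ⟨2, false⟩ * s2 ∈ ψ.range := by
    have := sq_conj_mem hidx (g := ⟨ψ ⟨1, false⟩, hle ⟨_, rfl⟩⟩) ⟨_, rfl⟩ ⟨s2, mem_cent.2 y2.symm⟩
    have : s2 * (ψ ⟨1, false⟩ * ψ ⟨1, false⟩) * s2⁻¹ ∈ ψ.range := this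
    rwa [← map_mul, inv_eq_of_mul_eq_one_right hc.bb] at this
  have cc : ψ ⟨2, false⟩ * ψ ⟨2, false⟩ = y := by rw [← map_mul, ← eY]; rfl
  have hs : s * s = Z := hψ (by
    rw [map_mul, es, eψ Z, eY, mul_assoc, mul_assoc, mul_assoc, ← mul_assoc s2 s2, hc.bb, one_mul,
      ← mul_assoc (ψ _), cc, y2, ← mul_assoc, hc.bb, one_mul])
  have last : ∀ w : List ℕ, (∀ a ∈ w, a ≠ 4) → ln s * ev gens w = 1 →
      ∀ r ∈ Rb ++ [[4, 0, 0, 4] ++ w], ev g r = 1 := fun w hw e => by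
    refine List.forall_mem_append.2 ⟨hRb, ?_⟩
    rw [List.forall_mem_singleton, ev_append, hev w hw]
    have : ev g ([4] ++ [0, 0] ++ [4]) = φ (ln s) := by
      rw [ev_append, ev_append, ev_singleton, hev _ (by decide), g4, ← eψ, es]; rfl
    rw [show [4, 0, 0, 4] = [4] ++ [0, 0] ++ [4] from rfl, this, ← map_mul, e, map_one]
  have c3 : s3 * ψ ⟨2, false⟩ = (ψ ⟨2, false⟩)⁻¹ * s3 := by
    rw [← e2, ← map_inv, eψ, eψ, ← map_mul, ← map_mul]; congr 1
  have bad : ¬ (s2 * ψ ⟨2, false⟩ * s2 = ψ ⟨2, false⟩ ∨ s2 * ψ ⟨2, false⟩ * s2 = (ψ ⟨2, false⟩)⁻¹) := by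
    have o4 : orderOf (ψ ⟨2, false⟩) = 4 := by
      rw [orderOf_injective ψ hψ, orderOf_eq_iff (by decide)]
      decide
    generalize ψ ⟨2, false⟩ = c at *
    intro e
    have c3' : s3 * c⁻¹ = c * s3 := by
      rw [mul_inv_eq_iff_eq_mul, mul_assoc, c3, mul_inv_cancel_left]
    have key : s2 * s3 * (s2 * s3) * c = c * (s2 * s3 * (s2 * s3)) := by
      rcases e with e | e
      · have e1 : s2 * c = c * s2 := by
          nth_rewrite 2 [← e]
          rw [mul_assoc, hc.bb, mul_one]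
        have e1' : s2 * c⁻¹ = c⁻¹ * s2 := (show Commute s2 c from e1).inv_right
        have a1 : s2 * s3 * c = c⁻¹ * (s2 * s3) := by rw [mul_assoc, c3, ← mul_assoc, e1', mul_assoc]
        have a2 : s2 * s3 * c⁻¹ = c * (s2 * s3) := by rw [mul_assoc, c3', ← mul_assoc, e1, mul_assoc]
        rw [mul_assoc (s2 * s3), a1, ← mul_assoc, a2, mul_assoc]
      · have e1 : s2 * c = c⁻¹ * s2 := by rw [← e, mul_assoc, hc.bb, mul_one]
        have e1' : s2 * c⁻¹ = c * s2 := by rw [mul_inv_eq_iff_eq_mul, mul_assoc, e1, mul_inv_cancel_left]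
        have : Commute (s2 * s3) c := by
          show s2 * s3 * c = c * (s2 * s3)
          rw [mul_assoc, c3, ← mul_assoc, e1', mul_assoc]
        exact this.mul_left this
    have d := (centralizer ({c} : Set G)).orderOf_dvd_natCard (mem_cent.2 key)
    have o3 : orderOf (s2 * s3 * (s2 * s3)) = 3 := by
      rw [← sq, Nat.Coprime.orderOf_pow (by rw [hc.ord]; decide), hc.ord]
    rw [o3, h.c4 o4] at d
    omega
  rcases sd_sq s hs with rfl | rfl | rfl | rfl | rfl | rfl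
  · exact absurd (Or.inl es.symm) bad
  · exact absurd (Or.inr (by rw [← es, ← map_inv]; rfl)) bad
  · exact absurd (e4.symm.trans (imp_univ impc g (last [1, 1, 1, 2] (by decide) (by decide +kernel)) _ (by simp))) y0
  · exact good_a h.card g (last [1, 2] (by decide) (by decide +kernel)) h144 (g2 ▸ hc.ne_one)
  · exact good_b h.card g (last [0, 2] (by decide) (by decide +kernel)) h144 (g2 ▸ hc.ne_one)
  · exact absurd (e4.symm.trans (imp_univ impd g (last [0, 0, 0, 2] (by decide) (by decide +kernel)) _ (by simp))) y0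

end Hyp

end Cfsg.Agent.Rec.M11

namespace Cfsg.Agent.Rec

/-- A group with the order and the centraliser orders of `M₁₁` is isomorphic to `M₁₁`. -/
theorem recM11 {G : Type*} [Group G] (hg : Nat.card G = 7920)
    (hc : ∀ x : G, x ≠ 1 → (orderOf x, Nat.card (Subgroup.centralizer ({x} : Set G))) ∈
      ({(2, 48), (3, 18), (4, 8), (8, 8), (5, 5), (6, 6), (11, 11)} : Finset (ℕ × ℕ))) :
    Nonempty (G ≃* ↥Cfsg.Spor.M11) :=
  M11.Hyp.iso ⟨hg, hc⟩

end Cfsg.Agent.Rec
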