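import Cfsg.Agent.Lib.Rec.M11Mod

/-! Local structure of a group with the order and the centraliser orders of `M₁₁`. -/

set_option autoImplicit false

namespace Cfsg.Agent.Rec.M11

open Subgroup

/-- The order and the centraliser orders of `M₁₁`. -/
structure Hyp (G : Type*) [Group G] : Prop where
  card : Nat.card G = 7920
  cent : ∀ x : G, x ≠ 1 → (orderOf x, Nat.card (centralizer ({x} : Set G))) ∈
    ({(2, 48), (3, 18), (4, 8), (8, 8), (5, 5), (6, 6), (11, 11)} : Finset (ℕ × ℕ))

theorem fact_pow {p n m : ℕ} (hp : p.Prime) (hm : ¬ p ∣ m) : (p ^ n * m).factorization p = n := by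
  rw [Nat.factorization_mul (pow_ne_zero _ hp.ne_zero) (show m ≠ 0 from fun e => hm (e ▸ dvd_zero p)),
    Nat.factorization_pow]
  simp [Nat.factorization_eq_zero_of_not_dvd hm, hp.factorization_self]

variable {G : Type*} [Group G]

theorem mem_cent {x y : G} : y ∈ centralizer ({x} : Set G) ↔ y * x = x * y := mem_centralizer_singleton_iff

theorem ord_two {x : G} (h1 : x * x = 1) (h2 : x ≠ 1) : orderOf x = 2 :=
  orderOf_eq_prime (by rw [sq, h1]) h2

theorem ord_three {x : G} (h1 : x ^ 3 = 1) (h2 : x ≠ 1) : orderOf x = 3 :=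
  haveI := Fact.mk Nat.prime_three
  orderOf_eq_prime h1 h2

theorem zp_three {t x : G} (ht : t ^ 3 = 1) (hx : x ∈ zpowers t) : x = 1 ∨ x = t ∨ x = t⁻¹ := by
  obtain ⟨n, rfl⟩ := mem_zpowers_iff.1 hx
  have h3 : t ^ (3 : ℤ) = 1 := by exact_mod_cast ht
  rw [zpow_eq_zpow_emod n h3]
  have : n % 3 = 0 ∨ n % 3 = 1 ∨ n % 3 = 2 := by omega
  rcases this with h | h | h <;> rw [h]
  · simp
  · simp
  · right; right
    rw [eq_inv_iff_mul_eq_one, ← zpow_add_one]; exact h3

namespace Hyp

variable (h : Hyp G)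
include h

theorem finite : Finite G := Nat.finite_of_card_ne_zero (by rw [h.card]; decide)

theorem cases {x : G} (hx : x ≠ 1) :
    (orderOf x = 2 ∧ Nat.card (centralizer ({x} : Set G)) = 48) ∨
    (orderOf x = 3 ∧ Nat.card (centralizer ({x} : Set G)) = 18) ∨
    (orderOf x = 4 ∧ Nat.card (centralizer ({x} : Set G)) = 8) ∨
    (orderOf x = 8 ∧ Nat.card (centralizer ({x} : Set G)) = 8) ∨
    (orderOf x = 5 ∧ Nat.card (centralizer ({x} : Set G)) = 5) ∨
    (orderOf x = 6 ∧ Nat.card (centralizer ({x} : Set G)) = 6) ∨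
    (orderOf x = 11 ∧ Nat.card (centralizer ({x} : Set G)) = 11) := by
  simpa using h.cent x hx

theorem c2 {x : G} (hx : orderOf x = 2) : Nat.card (centralizer ({x} : Set G)) = 48 := by
  have := h.cases (x := x) (fun e => by simp [e] at hx)
  omega

theorem c3 {x : G} (hx : orderOf x = 3) : Nat.card (centralizer ({x} : Set G)) = 18 := by
  have := h.cases (x := x) (fun e => by simp [e] at hx)
  omega

theorem c4 {x : G} (hx : orderOf x = 4) : Nat.card (centralizer ({x} : Set G)) = 8 := by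
  have := h.cases (x := x) (fun e => by simp [e] at hx)
  omega

theorem c6 {x : G} (hx : orderOf x = 6) : Nat.card (centralizer ({x} : Set G)) = 6 := by
  have := h.cases (x := x) (fun e => by simp [e] at hx)
  omega

theorem mem_six {w x : G} (hw : orderOf w = 6) (hx : x * w = w * x) : x ∈ zpowers w := by
  have := h.finite
  have h1 : zpowers w ≤ centralizer ({w} : Set G) := by
    rw [zpowers_le]; exact mem_cent.2 rfl
  have h2 := eq_of_le_of_card_ge h1 (by rw [h.c6 hw, Nat.card_zpowers, hw])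
  rw [h2]; exact mem_cent.2 hx

theorem eq_cube {w z : G} (hw : orderOf w = 6) (hz : z * z = 1) (hz1 : z ≠ 1) (hx : z * w = w * z) :
    z = w ^ 3 := by
  obtain ⟨n, rfl⟩ := mem_zpowers_iff.1 (h.mem_six hw hx)
  rw [← zpow_add, ← orderOf_dvd_iff_zpow_eq_one, hw] at hz
  rw [Ne, ← orderOf_dvd_iff_zpow_eq_one, hw] at hz1
  rw [← zpow_natCast, zpow_eq_zpow_iff_modEq, hw]
  unfold Int.ModEq
  push_cast at *
  omega

theorem mem_three {t z x : G} (ht : orderOf t = 3) (hz : orderOf z = 2) (htz : t * z = z * t)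
    (h1 : x * t = t * x) (h2 : x * z = z * x) (h3 : x ^ 3 = 1) : x ∈ zpowers t := by
  have hc : Commute t z := htz
  have h6 : orderOf (t * z) = 6 := by
    rw [hc.orderOf_mul_eq_mul_orderOf_of_coprime (by rw [ht, hz]; decide), ht, hz]
  obtain ⟨n, rfl⟩ := mem_zpowers_iff.1 (h.mem_six h6 (x := x) (by rw [← mul_assoc, h1, mul_assoc, h2, mul_assoc]))
  rw [← zpow_natCast, ← zpow_mul, ← orderOf_dvd_iff_zpow_eq_one, h6] at h3
  have h4 : z ^ n = 1 := by
    rw [← orderOf_dvd_iff_zpow_eq_one, hz]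
    push_cast at *
    omega
  rw [hc.mul_zpow, h4, mul_one]
  exact zpow_mem_zpowers t n

section
variable (P : Sylow 3 G)

theorem cardP : Nat.card P = 9 := by
  have := h.finite
  have := Fact.mk Nat.prime_three
  rw [P.card_eq_multiplicity, h.card, show 7920 = 3 ^ 2 * 880 by norm_num, fact_pow Nat.prime_three (by decide)]
  rfl

variable {P}

theorem commP {a b : G} (ha : a ∈ P) (hb : b ∈ P) : a * b = b * a := by
  have := Fact.mk Nat.prime_three
  exact congrArg Subtype.val ((IsPGroup.isMulCommutative_of_card_eq_prime_sq (p := 3) (G := P)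
    (by rw [h.cardP]; rfl)).is_comm.comm ⟨a, ha⟩ ⟨b, hb⟩)

theorem ordP {a : G} (ha : a ∈ P) (h1 : a ≠ 1) : orderOf a = 3 := by
  have h2 : orderOf a ∣ 9 := h.cardP P ▸ (P : Subgroup G).orderOf_dvd_natCard ha
  rcases h.cases h1 with e | e | e | e | e | e | e <;> rw [e.1] at h2 ⊢ <;> omega

theorem cubeP {a : G} (ha : a ∈ P) : a ^ 3 = 1 := by
  by_cases h1 : a = 1
  · simp [h1]
  · rw [← h.ordP ha h1, pow_orderOf_eq_one]

theorem le_cent {t : G} (ht : t ∈ P) : (P : Subgroup G) ≤ centralizer ({t} : Set G) :=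
  fun _ ha => mem_cent.2 (h.commP ha ht)

theorem index_cent {t : G} (ht : t ∈ P) (h1 : t ≠ 1) :
    ((P : Subgroup G).subgroupOf (centralizer ({t} : Set G))).index = 2 := by
  have h2 := ((P : Subgroup G).subgroupOf (centralizer ({t} : Set G))).index_mul_card
  rw [Nat.card_congr (subgroupOfEquivOfLe (h.le_cent ht)).toEquiv, h.c3 (h.ordP ht h1), h.cardP] at h2
  omega

theorem cent_le_norm {t : G} (ht : t ∈ P) (h1 : t ≠ 1) : centralizer ({t} : Set G) ≤ normalizer (P : Set G) :=
  (normal_subgroupOf_iff_le_normalizer (h.le_cent ht)).1 (normal_of_index_eq_two (h.index_cent ht h1))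

theorem memP {t x : G} (ht : t ∈ P) (h1 : t ≠ 1) (hx : x * t = t * x) (h3 : x ^ 3 = 1) : x ∈ P := by
  have h2 : x * x ∈ (P : Subgroup G) := mul_self_mem_of_index_two (h.index_cent ht h1) ⟨x, mem_cent.2 hx⟩
  have : x = x * x * (x * x) := by
    calc x = x * x ^ 3 := by rw [h3, mul_one]
      _ = _ := by simp [pow_succ, mul_assoc]
  rw [this]
  exact (P : Subgroup G).mul_mem h2 h2

theorem exists_ne (P : Sylow 3 G) : ∃ u v : G, u ∈ P ∧ v ∈ P ∧ u ≠ 1 ∧ v ∉ zpowers u := by
  have := h.finite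
  obtain ⟨u, hu, h1⟩ : ∃ u ∈ (P : Subgroup G), u ≠ 1 := by
    refine ((P : Subgroup G).bot_or_exists_ne_one).resolve_left fun e => ?_
    have := h.cardP P
    rw [show Nat.card P = Nat.card (P : Subgroup G) from rfl, e, card_bot] at this
    omega
  by_contra hc
  push Not at hc
  have h2 := card_le_of_le (show (P : Subgroup G) ≤ zpowers u from fun v hv => hc u v hu hv h1)
  rw [Nat.card_zpowers, h.ordP hu h1, h.cardP] at h2
  omega

theorem cent_P : centralizer (P : Set G) = P := by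
  have := h.finite
  refine le_antisymm ?_ fun a ha b hb => h.commP hb ha
  obtain ⟨t, -, ht, -, h1, -⟩ := h.exists_ne P
  intro x hx
  have hle : centralizer (P : Set G) ≤ centralizer ({t} : Set G) := centralizer_le (by simpa using ht)
  have hle' : (P : Subgroup G) ≤ centralizer (P : Set G) := fun a ha b hb => h.commP hb ha
  have d1 := card_dvd_of_le hle
  have d2 := card_dvd_of_le hle'
  rw [h.c3 (h.ordP ht h1)] at d1
  rw [h.cardP] at d2
  by_cases h2 : 2 ∣ Nat.card (centralizer (P : Set G))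
  · exfalso
    obtain ⟨z, hz⟩ := exists_prime_orderOf_dvd_card' 2 h2
    have hz' : orderOf (z : G) = 2 := by rw [← hz, orderOf_coe]
    have h3 : (P : Subgroup G) ≤ zpowers t := fun a ha =>
      h.mem_three (h.ordP ht h1) hz' (z.2 t ht) (h.commP ha ht) (z.2 a ha) (h.cubeP ha)
    have h4 := card_le_of_le h3
    rw [Nat.card_zpowers, h.ordP ht h1, h.cardP] at h4
    omega
  · have h3 : Nat.card (centralizer (P : Set G)) ≤ 9 := by
      have := Nat.le_of_dvd (by decide) d1
      omega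
    have := eq_of_le_of_card_ge hle' (by rw [h.cardP]; exact h3)
    rw [this]; exact hx

theorem exists_theta (P : Sylow 3 G) : ∃ θ : V →* G, Function.Injective θ ∧ θ.range = P := by
  have := h.finite
  obtain ⟨u, v, hu, hv, h1, h2⟩ := h.exists_ne P
  have hc : Commute u v := h.commP hu hv
  let θ : V →* G := MonoidHom.mk' (fun x => u ^ x.a.val * v ^ x.b.val) fun x y => by
    show u ^ (x.a + y.a).val * v ^ (x.b + y.b).val = _
    rw [Fin.val_add, Fin.val_add, ← pow_eq_pow_mod _ (h.cubeP hu), ← pow_eq_pow_mod _ (h.cubeP hv), pow_add,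
      pow_add, mul_assoc, mul_assoc, ← mul_assoc (u ^ y.a.val), (hc.pow_pow _ _).eq, mul_assoc]
  have hi : Function.Injective θ := by
    rw [injective_iff_map_eq_one]
    rintro ⟨a, b⟩ e
    have e : u ^ a.val * v ^ b.val = 1 := e
    have hm : v ^ b.val ∈ zpowers u := by
      rw [eq_inv_of_mul_eq_one_right e]
      exact inv_mem (pow_mem (mem_zpowers u) _)
    have hb : b = 0 := by
      by_contra hb
      apply h2
      have : v = (v ^ b.val) ^ b.val := by
        rw [← pow_mul, pow_eq_pow_mod _ (h.cubeP hv)]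
        have : b.val * b.val % 3 = 1 := (by decide : ∀ b : Fin 3, ¬ b = 0 → b.val * b.val % 3 = 1) b hb
        rw [this, pow_one]
      rw [this]; exact pow_mem hm _
    subst hb
    have e : u ^ a.val = 1 := by simpa using e
    rw [← orderOf_dvd_iff_pow_eq_one, h.ordP hu h1] at e
    have : a = 0 := (by decide : ∀ a : Fin 3, 3 ∣ a.val → a = 0) a e
    subst this; rfl
  refine ⟨θ, hi, eq_of_le_of_card_ge ?_ ?_⟩
  · rintro _ ⟨x, rfl⟩
    exact (P : Subgroup G).mul_mem (pow_mem hu _) (pow_mem hv _)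
  · rw [← Nat.card_congr (MonoidHom.ofInjective hi).toEquiv, card_V, h.cardP]

theorem exists_act (P : Sylow 3 G) : ∃ (θ : V →* G) (f : normalizer (P : Set G) →* MulAut V),
    Function.Injective θ ∧ θ.range = P ∧ (∀ n x, θ (f n x) = n * θ x * (n : G)⁻¹) ∧
      ∀ n, f n = 1 ↔ (n : G) ∈ P := by
  obtain ⟨θ, hi, hr⟩ := h.exists_theta P
  let e : V ≃* (P : Subgroup G) := (MonoidHom.ofInjective hi).trans (MulEquiv.subgroupCongr hr)
  let f : normalizer (P : Set G) →* MulAut V :=
    (MulAut.congr e.symm).toMonoidHom.comp (P : Subgroup G).normalizerMonoidHom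
  have he : ∀ x, (e x : G) = θ x := fun _ => rfl
  have hf : ∀ n x, θ (f n x) = n * θ x * (n : G)⁻¹ := fun n x => by
    rw [← he, ← he]
    show (e (e.symm ((P : Subgroup G).normalizerMonoidHom n (e x))) : G) = _
    rw [e.apply_symm_apply]; rfl
  refine ⟨θ, f, hi, hr, hf, fun n => ⟨fun hn => ?_, fun hn => ?_⟩⟩
  · have : (n : G) ∈ centralizer (P : Set G) := fun a ha => by
      obtain ⟨x, rfl⟩ : a ∈ θ.range := hr ▸ ha
      have := hf n x
      rw [hn] at this
      exact eq_mul_inv_iff_mul_eq.1 this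
    rwa [h.cent_P] at this
  · ext x
    apply hi
    rw [hf, h.commP hn (show θ x ∈ (P : Subgroup G) from hr ▸ ⟨x, rfl⟩), mul_inv_cancel_right]; rfl

theorem card_norm (P : Sylow 3 G) : Nat.card (normalizer (P : Set G)) = 144 := by
  have := h.finite
  have := Fact.mk Nat.prime_three
  obtain ⟨θ, f, hi, hr, hf, hk⟩ := h.exists_act P
  have k1 : f.ker = (P : Subgroup G).subgroupOf (normalizer (P : Set G)) := by
    ext n; exact hk n
  have k2 := f.ker.index_mul_card
  rw [index_ker, k1, Nat.card_congr (subgroupOfEquivOfLe (show (P : Subgroup G) ≤ normalizer (P : Set G) from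
    le_normalizer)).toEquiv, h.cardP] at k2
  have k3 : Nat.card f.range ∣ 48 := card_aut ▸ card_subgroup_dvd_card f.range
  have k4 := card_sylow_modEq_one 3 G
  rw [P.card_eq_index_normalizer] at k4
  have k5 := (normalizer (P : Set G)).index_mul_card
  rw [h.card] at k5
  have k6 : ∀ v : V, v ≠ 1 → ∃ g : f.range, g ≠ 1 ∧ (g : MulAut V) v = v := by
    intro v hv
    have hm : θ v ∈ (P : Subgroup G) := hr ▸ ⟨v, rfl⟩
    have h1 : θ v ≠ 1 := fun e => hv (hi (e.trans θ.map_one.symm))
    obtain ⟨n, hn, hn'⟩ : ∃ n ∈ centralizer ({θ v} : Set G), n ∉ (P : Subgroup G) := by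
      by_contra hc
      push Not at hc
      have := card_le_of_le (show centralizer ({θ v} : Set G) ≤ P from hc)
      rw [h.c3 (h.ordP hm h1), h.cardP] at this
      omega
    refine ⟨⟨f ⟨n, h.cent_le_norm hm h1 hn⟩, _, rfl⟩, fun e => hn' ((hk _).1 (congrArg Subtype.val e)), hi ?_⟩
    rw [hf, mem_cent.1 hn, mul_inv_cancel_right]
  let L : Fin 4 → V := ![⟨1, 0⟩, ⟨0, 1⟩, ⟨1, 1⟩, ⟨1, 2⟩]
  have hL : ∀ i, L i ≠ 1 := by decide
  have hL2 : ∀ i j, L j = 1 ∨ L j = L i ∨ L j = (L i)⁻¹ → i = j := by decide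
  choose g hg1 hg2 using fun i => k6 (L i) (hL i)
  have k7 : 5 ≤ Nat.card f.range := by
    have hF : Function.Injective (fun o : Option (Fin 4) => o.elim 1 g) := by
      rintro (_ | i) (_ | j) e
      · rfl
      · exact absurd e.symm (hg1 j)
      · exact absurd e (hg1 i)
      · have e : g i = g j := e
        rw [hL2 i j (fix_two (g i) (fun e' => hg1 i (Subtype.ext e')) (hL i) (hg2 i) (e ▸ hg2 j))]
    simpa using Nat.card_le_card_of_injective _ hF
  have k8 := Nat.le_of_dvd (by decide) k3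
  unfold Nat.ModEq at k4
  rw [← k2] at k5 ⊢
  generalize Nat.card f.range = m at *
  interval_cases m <;> omega

theorem exists_phi (P : Sylow 3 G) : ∃ φ : NM →* G, Function.Injective φ ∧ φ.range = normalizer (P : Set G) ∧
    ∀ x ∈ P, ∃ v, φ (tr v) = x := by
  have := h.finite
  obtain ⟨θ, f, hi, hr, hf, hk⟩ := h.exists_act P
  obtain ⟨S⟩ : Nonempty (Sylow 2 (normalizer (P : Set G))) := inferInstance
  have cS : Nat.card S = 16 := by
    rw [S.card_eq_multiplicity, h.card_norm, show 144 = 2 ^ 4 * 9 by norm_num, fact_pow Nat.prime_two (by decide)]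
    rfl
  let fS : S →* MulAut V := f.comp (S : Subgroup (normalizer (P : Set G))).subtype
  have hS : Function.Injective fS := by
    rw [injective_iff_map_eq_one]
    intro s hs
    have h1 : ((s : normalizer (P : Set G)) : G) ^ 3 = 1 := h.cubeP ((hk _).1 hs)
    have h2 : s ^ 3 = 1 := Subtype.ext (Subtype.ext h1)
    have h3 : s ^ 16 = 1 := cS ▸ pow_card_eq_one'
    calc s = s ^ 16 * ((s ^ 3) ^ 5)⁻¹ := by group
      _ = 1 := by rw [h2, h3]; simp
  have fa : (Nat.card (MulAut V)).factorization 2 = 4 := by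
    rw [card_aut, show 48 = 2 ^ 4 * 3 by norm_num, fact_pow Nat.prime_two (by decide)]
  let A : Sylow 2 (MulAut V) := Sylow.ofCard rho.range (by
    rw [fa, ← Nat.card_congr (MonoidHom.ofInjective rho_inj).toEquiv, card_SD]; rfl)
  let B : Sylow 2 (MulAut V) := Sylow.ofCard fS.range (by
    rw [fa, ← Nat.card_congr (MonoidHom.ofInjective hS).toEquiv, cS]; rfl)
  obtain ⟨k, hk'⟩ := MulAction.exists_smul_eq (MulAut V) A B
  have hm : ∀ s, ((MulAut.conj k).toMonoidHom.comp rho) s ∈ fS.range := fun s => by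
    have : (B : Subgroup (MulAut V)) = fS.range := rfl
    rw [← this, ← hk', Sylow.smul_def, Sylow.pointwise_smul_def]
    exact smul_mem_pointwise_smul _ _ _ ⟨s, rfl⟩
  let ψ0 : SD →* S := (MonoidHom.ofInjective hS).symm.toMonoidHom.comp
    (((MulAut.conj k).toMonoidHom.comp rho).codRestrict _ hm)
  have hψ : ∀ s, f (ψ0 s) = k * rho s * k⁻¹ := fun s =>
    MonoidHom.apply_ofInjective_symm hS (((MulAut.conj k).toMonoidHom.comp rho).codRestrict _ hm s)
  let ψ : SD →* G := (normalizer (P : Set G)).subtype.comp ((S : Subgroup (normalizer (P : Set G))).subtype.comp ψ0)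
  let θ' : V →* G := θ.comp k.toMonoidHom
  let φ : NM →* G := SemidirectProduct.lift θ' ψ fun s => by
    ext x
    show θ (k (rho s x)) = (ψ0 s : normalizer (P : Set G)) * θ (k x) * ((ψ0 s : normalizer (P : Set G)) : G)⁻¹
    rw [← hf, hψ]
    simp
  have hφ : ∀ n, φ n = θ (k n.left) * ψ n.right := fun _ => rfl
  have hP : ∀ x, θ x ∈ (P : Subgroup G) := fun x => hr ▸ ⟨x, rfl⟩
  have hj : Function.Injective φ := by
    rw [injective_iff_map_eq_one]
    rintro ⟨v, s⟩ e
    rw [hφ] at e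
    have h1 : ψ s ∈ (P : Subgroup G) := by
      rw [eq_inv_of_mul_eq_one_right e]; exact inv_mem (hP _)
    have h2 := (hk (ψ0 s)).2 h1
    rw [hψ, mul_inv_eq_one, mul_eq_left] at h2
    have h3 : s = 1 := rho_inj (h2.trans rho.map_one.symm)
    subst h3
    have h4 : k v = k 1 := hi (by simpa using e)
    rw [k.injective h4]; rfl
  refine ⟨φ, hj, eq_of_le_of_card_ge ?_ ?_, fun x hx => ?_⟩
  · rintro _ ⟨n, rfl⟩
    rw [hφ]
    exact mul_mem (le_normalizer (hP _)) (ψ0 n.right : normalizer (P : Set G)).2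
  · rw [← Nat.card_congr (MonoidHom.ofInjective hj).toEquiv, card_NM, h.card_norm]
  · obtain ⟨y, rfl⟩ : x ∈ θ.range := hr ▸ hx
    refine ⟨k.symm y, ?_⟩
    rw [hφ]
    simp [tr]

end

theorem exists_phi_three {t : G} (ht : orderOf t = 3) : ∃ φ : NM →* G, Function.Injective φ ∧
    (∃ v, v ≠ 1 ∧ φ (tr v) = t) ∧ ∀ g, g * t = t * g ∨ g * t = t⁻¹ * g → ∃ n, φ n = g := by
  have := h.finite
  have := Fact.mk Nat.prime_three
  have h1 : t ≠ 1 := fun e => by simp [e] at ht
  obtain ⟨P, hP⟩ := (IsPGroup.of_card (p := 3) (n := 1) (G := zpowers t)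
    (by rw [Nat.card_zpowers, ht]; rfl)).exists_le_sylow
  have hm : t ∈ P := hP (mem_zpowers t)
  obtain ⟨φ, hj, hr, hv⟩ := h.exists_phi P
  refine ⟨φ, hj, ?_, fun g hg => ?_⟩
  · obtain ⟨v, e⟩ := hv t hm
    refine ⟨v, fun e' => h1 ?_, e⟩
    rw [← e, e']; exact φ.map_one
  · have : g ∈ normalizer (P : Set G) := by
      refine mem_normalizer_fintype fun x hx => h.memP hm h1 ?_ ?_
      · have hc : Commute x t := h.commP hx hm
        rcases hg with e | e
        · have e' : g⁻¹ * t = t * g⁻¹ := (show Commute g t from e).inv_left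
          rw [mul_assoc, e', ← mul_assoc, mul_assoc g, hc.eq, ← mul_assoc, e]; group
        · have e1 : t = g * t⁻¹ * g⁻¹ := by
            rw [eq_mul_inv_iff_mul_eq, eq_mul_inv_iff_mul_eq, mul_assoc, e]; group
          have e2 : g * x * g⁻¹ * (g * t⁻¹ * g⁻¹) = g * t⁻¹ * g⁻¹ * (g * x * g⁻¹) := by
            calc _ = g * (x * t⁻¹) * g⁻¹ := by group
              _ = g * (t⁻¹ * x) * g⁻¹ := by rw [hc.inv_right.eq]
              _ = _ := by group
          rwa [← e1] at e2
      · rw [conj_pow, h.cubeP hx]; simp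
    rw [← hr] at this
    exact this

end Hyp

end Cfsg.Agent.Rec.M11
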