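import Cfsg.Agent.Lib.CG.Basic

/-! The model `3² ⋊ SD₁₆` of the normaliser of a Sylow 3-subgroup of `M₁₁`. -/

set_option autoImplicit false
set_option maxRecDepth 100000

namespace Cfsg.Agent.Rec.M11

open Cfsg.Agent.CG

/-- The elementary abelian group of order nine. -/
structure V : Type where
  a : Fin 3
  b : Fin 3

instance decEqV : DecidableEq V := fun x y =>
  decidable_of_iff (x.a = y.a ∧ x.b = y.b) (by cases x; cases y; simp)

instance decAllV (p : V → Prop) [DecidablePred p] : Decidable (∀ v, p v) :=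
  decidable_of_iff (∀ a b, p ⟨a, b⟩) ⟨fun h v => h v.a v.b, fun h _ _ => h _⟩

instance decExV (p : V → Prop) [DecidablePred p] : Decidable (∃ v, p v) :=
  decidable_of_iff (∃ a b, p ⟨a, b⟩) ⟨fun ⟨_, _, h⟩ => ⟨_, h⟩, fun ⟨v, h⟩ => ⟨v.a, v.b, h⟩⟩

/-- Coordinates. -/
def eqvV : V ≃ Fin 3 × Fin 3 := ⟨fun v => (v.a, v.b), fun p => ⟨p.1, p.2⟩, fun _ => rfl, fun _ => rfl⟩

instance finiteV : Finite V := Finite.of_equiv _ eqvV.symm

theorem card_V : Nat.card V = 9 := by rw [Nat.card_congr eqvV]; simp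

instance mulV : Mul V := ⟨fun x y => ⟨x.a + y.a, x.b + y.b⟩⟩
instance oneV : One V := ⟨⟨0, 0⟩⟩
instance invV : Inv V := ⟨fun x => ⟨-x.a, -x.b⟩⟩

instance groupV : Group V := Group.ofLeftAxioms (by decide +kernel) (by decide +kernel) (by decide +kernel)

/-- The semidihedral group of order sixteen. -/
structure SD : Type where
  k : Fin 8
  e : Bool

instance decEqSD : DecidableEq SD := fun x y =>
  decidable_of_iff (x.k = y.k ∧ x.e = y.e) (by cases x; cases y; simp)

instance decAllSD (p : SD → Prop) [DecidablePred p] : Decidable (∀ v, p v) :=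
  decidable_of_iff (∀ a b, p ⟨a, b⟩) ⟨fun h v => h v.k v.e, fun h _ _ => h _⟩

instance decExSD (p : SD → Prop) [DecidablePred p] : Decidable (∃ v, p v) :=
  decidable_of_iff (∃ a b, p ⟨a, b⟩) ⟨fun ⟨_, _, h⟩ => ⟨_, h⟩, fun ⟨v, h⟩ => ⟨v.k, v.e, h⟩⟩

/-- Coordinates. -/
def eqvSD : SD ≃ Fin 8 × Bool := ⟨fun v => (v.k, v.e), fun p => ⟨p.1, p.2⟩, fun _ => rfl, fun _ => rfl⟩

instance finiteSD : Finite SD := Finite.of_equiv _ eqvSD.symm

theorem card_SD : Nat.card SD = 16 := by rw [Nat.card_congr eqvSD]; simp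

instance mulSD : Mul SD := ⟨fun x y => ⟨x.k + (bif x.e then 3 * y.k else y.k), xor x.e y.e⟩⟩
instance oneSD : One SD := ⟨⟨0, false⟩⟩
instance invSD : Inv SD := ⟨fun x => ⟨bif x.e then 5 * x.k else -x.k, x.e⟩⟩

instance groupSD : Group SD := Group.ofLeftAxioms (by decide +kernel) (by decide +kernel) (by decide +kernel)

/-- The powers of a primitive element of the field of nine elements. -/
def pw (k : Fin 8) : V :=
  match k with
  | 0 => ⟨1, 0⟩ | 1 => ⟨1, 1⟩ | 2 => ⟨0, 2⟩ | 3 => ⟨1, 2⟩ | 4 => ⟨2, 0⟩ | 5 => ⟨2, 2⟩ | 6 => ⟨0, 1⟩ | 7 => ⟨2, 1⟩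

/-- Multiplication in the field of nine elements. -/
def fm (x y : V) : V := ⟨x.a * y.a - x.b * y.b, x.a * y.b + x.b * y.a⟩

/-- The semilinear action. -/
def act (s : SD) (v : V) : V := fm (pw s.k) (bif s.e then ⟨v.a, -v.b⟩ else v)

theorem act_mul_left : ∀ s t v, act (s * t) v = act s (act t v) := by decide +kernel
theorem act_mul_right : ∀ s v w, act s (v * w) = act s v * act s w := by decide +kernel
theorem act_one : ∀ v, act 1 v = v := by decide +kernel

/-- The action as a homomorphism. -/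
def rho : SD →* MulAut V where
  toFun s :=
    { toFun := act s
      invFun := act s⁻¹
      left_inv := fun v => by rw [← act_mul_left, inv_mul_cancel, act_one]
      right_inv := fun v => by rw [← act_mul_left, mul_inv_cancel, act_one]
      map_mul' := act_mul_right s }
  map_one' := MulEquiv.ext act_one
  map_mul' s t := MulEquiv.ext (act_mul_left s t)

theorem rho_inj : Function.Injective rho := by
  rw [injective_iff_map_eq_one]
  intro s hs
  have : ∀ s : SD, (∀ v, act s v = v) → s = 1 := by decide +kernel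
  exact this s fun v => MulEquiv.congr_fun hs v

theorem mul_comm_V : ∀ v w : V, v * w = w * v := by decide +kernel

theorem eq_pow_V : ∀ v : V, v = (⟨1, 0⟩ : V) ^ v.a.val * (⟨0, 1⟩ : V) ^ v.b.val := by decide +kernel

theorem card_aut_le : Nat.card (MulAut V) ≤ 48 := by
  let F : MulAut V → {p : (Fin 3 × Fin 3) × (Fin 3 × Fin 3) // p.1.1 * p.2.2 ≠ p.1.2 * p.2.1} := fun f =>
    ⟨(eqvV (f ⟨1, 0⟩), eqvV (f ⟨0, 1⟩)), by
      have key : ∀ x y : V, x.a * y.b = x.b * y.a → ∃ v : V, v ≠ 1 ∧ x ^ v.a.val * y ^ v.b.val = 1 := by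
        decide +kernel
      intro h
      obtain ⟨v, h1, h2⟩ := key _ _ h
      rw [← map_pow, ← map_pow, ← map_mul, ← eq_pow_V] at h2
      exact h1 ((MulEquiv.map_eq_one_iff f).1 h2)⟩
  have hF : Function.Injective F := by
    intro f g h
    have h := congrArg Subtype.val h
    have h1 : f ⟨1, 0⟩ = g ⟨1, 0⟩ := eqvV.injective (congrArg Prod.fst h)
    have h2 : f ⟨0, 1⟩ = g ⟨0, 1⟩ := eqvV.injective (congrArg Prod.snd h)
    ext v
    rw [eq_pow_V v, map_mul, map_mul, map_pow, map_pow, map_pow, map_pow, h1, h2]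
  refine (Nat.card_le_card_of_injective F hF).trans ?_
  rw [Nat.card_eq_fintype_card]
  decide +kernel

/-- A shear. -/
def shear : MulAut V where
  toFun v := ⟨v.a + v.b, v.b⟩
  invFun v := ⟨v.a - v.b, v.b⟩
  left_inv := by unfold Function.LeftInverse; decide +kernel
  right_inv := by unfold Function.RightInverse Function.LeftInverse; decide +kernel
  map_mul' := by decide +kernel

instance finiteAutV : Finite (MulAut V) :=
  Finite.of_injective (fun f : MulAut V => (f : V → V)) DFunLike.coe_injective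

theorem card_aut : Nat.card (MulAut V) = 48 := by
  have h1 : 16 ∣ Nat.card (MulAut V) := card_SD ▸ Subgroup.card_dvd_of_injective rho rho_inj
  have h2 : 3 ∣ Nat.card (MulAut V) := by
    have : orderOf shear = 3 := by
      have := Fact.mk Nat.prime_three
      refine orderOf_eq_prime ?_ ?_
      · ext v
        have : ∀ v, shear (shear (shear v)) = v := by decide +kernel
        exact this v
      · intro h
        have := MulEquiv.congr_fun h ⟨0, 1⟩
        revert this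
        decide +kernel
    exact this ▸ orderOf_dvd_natCard shear
  have h3 := card_aut_le
  have h4 : 0 < Nat.card (MulAut V) := Nat.card_pos
  omega

/-- A nontrivial automorphism fixes at most two nontrivial elements. -/
theorem fix_two (f : MulAut V) (hf : f ≠ 1) {v w : V} (h1 : v ≠ 1) (hv : f v = v) (hw : f w = w) :
    w = 1 ∨ w = v ∨ w = v⁻¹ := by
  by_contra hne
  apply hf
  have key : ∀ v w : V, v ≠ 1 → ¬ (w = 1 ∨ w = v ∨ w = v⁻¹) → ∀ x : V, ∃ i j : Fin 3, x = v ^ i.val * w ^ j.val := by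
    decide +kernel
  ext x
  obtain ⟨i, j, rfl⟩ := key v w h1 hne x
  rw [map_mul, map_pow, map_pow, hv, hw]; rfl

/-- The model of the normaliser. -/
abbrev NM : Type := SemidirectProduct V SD rho

instance decAllNM (p : NM → Prop) [DecidablePred p] : Decidable (∀ v, p v) :=
  decidable_of_iff (∀ a b, p ⟨a, b⟩) ⟨fun h v => h v.left v.right, fun h _ _ => h _⟩

instance decExNM (p : NM → Prop) [DecidablePred p] : Decidable (∃ v, p v) :=
  decidable_of_iff (∃ a b, p ⟨a, b⟩) ⟨fun ⟨_, _, h⟩ => ⟨_, h⟩, fun ⟨v, h⟩ => ⟨v.left, v.right, h⟩⟩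

instance finiteNM : Finite NM := Finite.of_equiv _ SemidirectProduct.equivProd.symm

theorem card_NM : Nat.card NM = 144 := by
  rw [Nat.card_congr SemidirectProduct.equivProd, Nat.card_prod, card_V, card_SD]

/-- The central involution. -/
def Z : SD := ⟨4, false⟩

/-- The translation by `v`. -/
def tr (v : V) : NM := ⟨v, 1⟩

/-- The linear map `s`. -/
def ln (s : SD) : NM := ⟨1, s⟩

theorem sd_comm : ∀ x y z : SD, x * x = 1 → y * y = 1 → z * z = 1 → z ≠ 1 → z * x = x * z → z * y = y * z →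
    x * y = 1 ∨ x * y = z ∨ x * y * (x * y) = z ∨ x = z ∨ y = z ∨ x = 1 ∨ y = 1 := by decide +kernel

theorem sd_center : ∀ z : SD, z ≠ 1 → (∀ s, z * s = s * z) → z = Z := by decide +kernel

theorem sd_four : ∀ x : SD, x * x = 1 → x ≠ 1 → x ≠ Z → ∃ b, b * b = 1 ∧ b * x * b = x * Z := by decide +kernel

theorem sd_sq : ∀ s : SD, s * s = Z → s = ⟨2, false⟩ ∨ s = ⟨6, false⟩ ∨ s = ⟨1, true⟩ ∨ s = ⟨3, true⟩ ∨
    s = ⟨5, true⟩ ∨ s = ⟨7, true⟩ := by decide +kernel

theorem nm_cent : ∀ v : V, v ≠ 1 → ∀ n : NM, n * n = 1 → n * tr v * n = (tr v)⁻¹ →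
    ∃ y : NM, y * y = 1 ∧ y ≠ 1 ∧ y * tr v = tr v * y ∧ y * n = n * y ∧
      (n.right = Z ∨ ∃ w : V, w ≠ 1 ∧ tr w * n = n * tr w ∧ y * tr w * y = (tr w)⁻¹) := by decide +kernel

theorem nm_norm : ∀ v : V, v ≠ 1 → ∀ n : NM, n.right = Z → ∀ m : NM, m * m = 1 → m ≠ 1 → m * n = n * m →
    m * tr v = tr v * m → ∃ h : NM, h * n = ln Z * h ∧ h * tr v = tr ⟨1, 0⟩ * h ∧ h * m = ln ⟨0, true⟩ * h := by
  decide +kernel

/-- The generators. -/
def gens (a : ℕ) : NM :=
  match a with
  | 0 => ln ⟨1, false⟩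
  | 1 => ln ⟨7, false⟩
  | 2 => ln ⟨0, true⟩
  | 3 => tr ⟨1, 0⟩ * ln Z
  | _ => 1

/-- Relators of the model. -/
def RN : List (List ℕ) := [[0,1], [2,2], [3,3], [0,0,0,0,0,0,0,0], [2,0,2,1,1,1], [3,2,3,2],
  [3,0,3,1,1,1,3,1,1], [3,0,0,3,0,0,0,3,1], [3,0,0,0,0,3,0,0,0,0,3,0,0,0,0]]

theorem rels_gens : ∀ w ∈ RN, ev gens w = 1 := by
  unfold RN ev
  decide +kernel

theorem gen_eq : ∀ n : NM, n = (gens 3 * gens 0 ^ 4) ^ n.left.a.val *
    (gens 1 ^ 2 * gens 3 * gens 0 ^ 6) ^ n.left.b.val * gens 0 ^ n.right.k.val *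
      gens 2 ^ (bif n.right.e then 1 else 0) := by decide +kernel

end Cfsg.Agent.Rec.M11
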